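import Mathlib
import Cfsg.Agent.H467.OddNormRow
import Cfsg.Agent.H545.LT.Defs
import Cfsg.Agent.H722.RealP

/-!
# Involutions normalising Sylow subgroups of `Aut S`: real elements fixed by field automorphisms (helper122)

* `ev_of_centralizer` : a real `p`-element `z` of `S` whose centralizer in `Aut S` has index prime to `p` gives `Ev p S`;
* `ev_of_fixed` : enough: `C_S(z)` has index prime to `p` and `C_{Aut S}(z)` covers a Sylow `p`-subgroup of `Out S`;
* `ev_of_field` : abelian Sylow `p`-subgroups, a cyclic group `Γ` of automorphisms whose order is divisible by the `p`-part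
  of `|Out S|` and with `Γ_p ∩ Inn S = 1`, and a real element of order `p` fixed by the `p`-elements of `Γ`.
-/

set_option autoImplicit false

namespace Cfsg.Agent.H122.On

open Subgroup Cfsg.Agent.H467.OddNorm

universe u v

variable {S : Type u} [Group S] {p : ℕ}

/-- a real `p`-element whose centralizer in `Aut S` has index prime to `p` -/
theorem ev_of_centralizer [Finite S] [hp : Fact p.Prime] (hp2 : p ≠ 2) (hZ : center S = ⊥) {z g : S} (hz : z ≠ 1)
    (hzp : ∃ k : ℕ, z ^ p ^ k = 1) (hg : g * z * g⁻¹ = z⁻¹)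
    (hi : ¬ p ∣ (centralizer ({MulAut.conj z} : Set (MulAut S))).index) : Ev p S := by
  classical
  have hinj := conj_injective hZ
  set c : MulAut S := MulAut.conj z with hc
  obtain ⟨P0⟩ : Nonempty (Sylow p ↥(centralizer ({c} : Set (MulAut S)))) := inferInstance
  set P : Subgroup (MulAut S) := (P0 : Subgroup ↥(centralizer ({c} : Set (MulAut S)))).map
    (centralizer ({c} : Set (MulAut S))).subtype with hP
  have hPM : P ≤ centralizer ({c} : Set (MulAut S)) := by
    rintro _ ⟨x, -, rfl⟩
    exact x.2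
  have hPp : IsPGroup p ↥P := P0.isPGroup'.map _
  have hPi : ¬ p ∣ P.index := by
    have h1 : P.relIndex (centralizer ({c} : Set (MulAut S))) * (centralizer ({c} : Set (MulAut S))).index = P.index :=
      relIndex_mul_index hPM
    have h2 : P.relIndex (centralizer ({c} : Set (MulAut S))) =
        (P0 : Subgroup ↥(centralizer ({c} : Set (MulAut S)))).index := by
      rw [relIndex, hP, subgroupOf, comap_map_eq_self_of_injective (subtype_injective _)]
    rw [← h1, h2]
    intro h3
    rcases (hp.out.dvd_mul).1 h3 with h3 | h3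
    · exact P0.not_dvd_index h3
    · exact hi h3
  have hck : ∃ k : ℕ, c ^ p ^ k = 1 := by
    obtain ⟨k, hk⟩ := hzp
    exact ⟨k, by rw [hc, ← map_pow, hk, map_one]⟩
  -- `c ∈ P`
  have hcP : c ∈ P := by
    have hcC : c ∈ centralizer ({c} : Set (MulAut S)) := mem_centralizer_singleton_iff.2 rfl
    have hcen : (⟨c, hcC⟩ : ↥(centralizer ({c} : Set (MulAut S)))) ∈
        center ↥(centralizer ({c} : Set (MulAut S))) := by
      rw [Subgroup.mem_center_iff]
      intro y
      exact Subtype.ext (mem_centralizer_singleton_iff.1 y.2)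
    obtain ⟨k, hk⟩ := hck
    have hpz : IsPGroup p ↥(zpowers (⟨c, hcC⟩ : ↥(centralizer ({c} : Set (MulAut S))))) := by
      rintro ⟨_, j, rfl⟩
      refine ⟨k, ?_⟩
      apply Subtype.ext
      apply Subtype.ext
      simp only [SubmonoidClass.coe_pow, Subgroup.coe_zpow, OneMemClass.coe_one]
      rw [← zpow_natCast, ← zpow_mul, mul_comm, zpow_mul, zpow_natCast, hk, one_zpow]
    obtain ⟨P1, hP1⟩ := hpz.exists_le_sylow
    have h2 : (⟨c, hcC⟩ : ↥(centralizer ({c} : Set (MulAut S)))) ∈ (P0 : Subgroup _) := by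
      obtain ⟨y, hy⟩ := MulAction.exists_smul_eq (↥(centralizer ({c} : Set (MulAut S)))) P1 P0
      rw [← hy, Sylow.smul_def, Sylow.pointwise_smul_def, Subgroup.mem_pointwise_smul_iff_inv_smul_mem]
      have h3 : (MulAut.conj y)⁻¹ • (⟨c, hcC⟩ : ↥(centralizer ({c} : Set (MulAut S)))) = ⟨c, hcC⟩ := by
        show (MulAut.conj y)⁻¹ _ = _
        rw [MulAut.conj_inv_apply, mul_assoc, ← Subgroup.mem_center_iff.1 hcen y]
        group
      rw [h3]
      exact hP1 (mem_zpowers _)
    exact ⟨_, h2, rfl⟩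
  obtain ⟨t', ht'I, ht'2, ht'n⟩ := Cfsg.Agent.H467.OddNorm.of_real hp2 (N := (MulAut.conj : S →* MulAut S).range)
    (P := P) hPp (fun h3 => hPi (h3.trans (relIndex_dvd_index_of_le le_sup_right))) hcP (fun x hx => by
      exact mem_centralizer_singleton_iff.1 (hPM hx)) (fun h => hz (hinj (h.trans (map_one _).symm)))
    (g := MulAut.conj g) (mem_sup_left ⟨_, rfl⟩) (by rw [hc, ← map_inv, ← map_mul, ← map_mul, hg, map_inv])
  obtain ⟨t, rfl⟩ := ht'I
  exact Ev.of_sub hPp hPi (by rw [← ht'2]; exact (orderOf_injective _ hinj t).symm) ht'n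

theorem card_mul_rel {G : Type*} [Group G] {H K : Subgroup G} (h : H ≤ K) :
    Nat.card ↥H * H.relIndex K = Nat.card ↥K := by
  rw [relIndex, ← Nat.card_congr (subgroupOfEquivOfLe h).toEquiv]
  exact card_mul_index _

/-- `|X N : X| = |N : X ∩ N|` -/
theorem relIndex_sup_eq {G : Type*} [Group G] [Finite G] (N : Subgroup G) [N.Normal] (X : Subgroup G) :
    X.relIndex (X ⊔ N) = X.relIndex N := by
  have h1 : N.relIndex (X ⊔ N) = N.relIndex X := relIndex_sup_right X N
  have h2 : X.relIndex (X ⊔ N) * Nat.card ↥X = Nat.card ↥(X ⊔ N) := by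
    rw [mul_comm]; exact card_mul_rel le_sup_left
  have h3 : N.relIndex (X ⊔ N) * Nat.card ↥N = Nat.card ↥(X ⊔ N) := by
    rw [mul_comm]; exact card_mul_rel le_sup_right
  have h4 : N.relIndex X * Nat.card ↥(N ⊓ X) = Nat.card ↥X := by
    rw [← inf_relIndex_right, mul_comm]; exact card_mul_rel inf_le_right
  have h5 : X.relIndex N * Nat.card ↥(X ⊓ N) = Nat.card ↥N := by
    rw [← inf_relIndex_right, mul_comm]; exact card_mul_rel inf_le_right
  rw [inf_comm] at h4
  have h0 : 0 < Nat.card ↥(X ⊓ N) := Nat.card_pos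
  have h0' : 0 < N.relIndex X := Nat.pos_of_ne_zero fun h => by
    rw [h, zero_mul] at h4
    exact Nat.card_pos.ne h4
  have h6 : X.relIndex (X ⊔ N) * (N.relIndex X * Nat.card ↥(X ⊓ N)) =
      X.relIndex N * (N.relIndex X * Nat.card ↥(X ⊓ N)) := by
    rw [h4, h2, ← h3, h1, ← h5]
    rw [← h4]
    ring
  exact Nat.eq_of_mul_eq_mul_right (Nat.mul_pos h0' h0) h6

/-- a subgroup `X` whose intersection with the normal subgroup `N` has index prime to `p` in `N` and whose image in
`G / N` has index prime to `p` has index prime to `p` -/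
theorem index_of_normal {G : Type*} [Group G] [Finite G] [hp : Fact p.Prime] (N : Subgroup G) [N.Normal]
    {X : Subgroup G} (h1 : ¬ p ∣ X.relIndex N) (h2 : ¬ p ∣ (X.map (QuotientGroup.mk' N)).index) : ¬ p ∣ X.index := by
  intro h3
  have e1 : X.relIndex (X ⊔ N) * (X ⊔ N).index = X.index := relIndex_mul_index le_sup_left
  have e2 : (X.map (QuotientGroup.mk' N)).index = (X ⊔ N).index := by
    rw [index_map, QuotientGroup.ker_mk', MonoidHom.range_eq_top.2 (QuotientGroup.mk'_surjective N), index_top, mul_one]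
  rw [← e1, relIndex_sup_eq, ← e2] at h3
  rcases (hp.out.dvd_mul).1 h3 with h | h
  · exact h1 h
  · exact h2 h

theorem ev_of_fixed [Finite S] [hp : Fact p.Prime] (hp2 : p ≠ 2) (hZ : center S = ⊥) {z g : S} (hz : z ≠ 1)
    (hzp : ∃ k : ℕ, z ^ p ^ k = 1) (hg : g * z * g⁻¹ = z⁻¹) (hi : ¬ p ∣ (centralizer ({z} : Set S)).index)
    (ho : ¬ p ∣ ((centralizer ({MulAut.conj z} : Set (MulAut S))).map (QuotientGroup.mk' (Cfsg.Inn S))).index) :
    Ev p S := by
  refine ev_of_centralizer hp2 hZ hz hzp hg (index_of_normal (Cfsg.Inn S) ?_ ho)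
  intro h
  apply hi
  have h1 : (centralizer ({z} : Set S)) ≤
      (centralizer ({MulAut.conj z} : Set (MulAut S))).comap (MulAut.conj : S →* MulAut S) := by
    intro y hy
    rw [mem_comap, mem_centralizer_singleton_iff, ← map_mul, ← map_mul]
    rw [mem_centralizer_singleton_iff] at hy
    rw [hy]
  have h2 : ((centralizer ({MulAut.conj z} : Set (MulAut S))).comap (MulAut.conj : S →* MulAut S)).index =
      (centralizer ({MulAut.conj z} : Set (MulAut S))).relIndex (Cfsg.Inn S) := by
    rw [index_comap]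
  have h3 : (centralizer ({MulAut.conj z} : Set (MulAut S))).comap (MulAut.conj : S →* MulAut S) ≤
      centralizer ({z} : Set S) := by
    intro y hy
    rw [mem_comap, mem_centralizer_singleton_iff, ← map_mul, ← map_mul] at hy
    rw [mem_centralizer_singleton_iff]
    exact conj_injective hZ hy
  rw [← h2, ← le_antisymm h1 h3] at h
  exact h

/-- **Abelian Sylow subgroups, field automorphisms.** -/
theorem ev_of_field [Finite S] [hp : Fact p.Prime] (hp2 : p ≠ 2) (hZ : center S = ⊥)
    (hab : ∀ P : Sylow p S, IsMulCommutative (P : Subgroup S)) {Γ : Type*} [Group Γ] [Finite Γ] (Ψ : Γ →* MulAut S)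
    (hout : ∀ γ : Γ, orderOf γ = p → Ψ γ ∉ Cfsg.Inn S)
    (hcard : ∀ k : ℕ, p ^ k ∣ Nat.card (Cfsg.Out S) → p ^ k ∣ Nat.card Γ)
    {z g : S} (hz : z ≠ 1) (hzp : ∃ k : ℕ, z ^ p ^ k = 1) (hg : g * z * g⁻¹ = z⁻¹)
    {P : Subgroup Γ} (hPi : ¬ p ∣ P.index) (hfix : ∀ γ ∈ P, Ψ γ z = z) : Ev p S := by
  classical
  refine ev_of_fixed hp2 hZ hz hzp hg ?_ ?_
  · -- `z` lies in an abelian Sylow subgroup
    obtain ⟨k, hk⟩ := hzp
    have hpz : IsPGroup p ↥(zpowers z) := by
      rintro ⟨_, j, rfl⟩
      refine ⟨k, ?_⟩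
      apply Subtype.ext
      simp only [SubmonoidClass.coe_pow, OneMemClass.coe_one]
      rw [← zpow_natCast, ← zpow_mul, mul_comm, zpow_mul, zpow_natCast, hk, one_zpow]
    obtain ⟨Q, hQ⟩ := hpz.exists_le_sylow
    have hzQ : z ∈ (Q : Subgroup S) := hQ (mem_zpowers z)
    have hle : (Q : Subgroup S) ≤ centralizer ({z} : Set S) := by
      intro y hy
      rw [mem_centralizer_singleton_iff]
      exact congrArg Subtype.val ((hab Q).is_comm.comm ⟨y, hy⟩ ⟨z, hzQ⟩)
    exact fun h => Q.not_dvd_index (h.trans (index_dvd_of_le hle))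
  · set C := centralizer ({MulAut.conj z} : Set (MulAut S)) with hC
    let f : Γ →* Cfsg.Out S := (QuotientGroup.mk' (Cfsg.Inn S)).comp Ψ
    obtain ⟨Q⟩ : Nonempty (Sylow p ↥P) := inferInstance
    have hQp : IsPGroup p ↥((Q : Subgroup ↥P).map P.subtype) := Q.isPGroup'.map _
    set R : Subgroup Γ := (Q : Subgroup ↥P).map P.subtype with hR
    have hRP : R ≤ P := by rintro _ ⟨x, -, rfl⟩; exact x.2
    have hRi : ¬ p ∣ R.index := by
      have h1 : R.relIndex P * P.index = R.index := relIndex_mul_index hRP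
      have h2 : R.relIndex P = (Q : Subgroup ↥P).index := by
        rw [relIndex, hR, subgroupOf, comap_map_eq_self_of_injective (subtype_injective _)]
      rw [← h1, h2]
      intro h3
      rcases (hp.out.dvd_mul).1 h3 with h3 | h3
      · exact Q.not_dvd_index h3
      · exact hPi h3
    -- `f` is injective on `R`
    have hinj : Function.Injective (f.comp R.subtype) := by
      rw [injective_iff_map_eq_one]
      intro x hx
      by_contra hx1
      obtain ⟨k, hk⟩ := IsPGroup.iff_orderOf.1 hQp x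
      have hk0 : k ≠ 0 := by
        rintro rfl
        rw [pow_zero, orderOf_eq_one_iff] at hk
        exact hx1 hk
      obtain ⟨j, rfl⟩ := Nat.exists_eq_succ_of_ne_zero hk0
      have ho : orderOf (x ^ p ^ j) = p := by
        rw [orderOf_pow_of_dvd (pow_ne_zero _ hp.out.ne_zero) (by rw [hk]; exact pow_dvd_pow p (Nat.le_succ j)), hk,
          Nat.succ_eq_add_one, pow_succ', Nat.mul_div_cancel _ (pow_pos hp.out.pos j)]
      have ho' : orderOf ((x : Γ) ^ p ^ j) = p := by
        have h1 := Subgroup.orderOf_coe (x ^ p ^ j)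
        rw [ho] at h1
        exact h1
      apply hout _ ho'
      have h1 : f ((x : Γ) ^ p ^ j) = 1 := by
        rw [map_pow]
        have : f (x : Γ) = 1 := hx
        rw [this, one_pow]
      exact (QuotientGroup.eq_one_iff _).1 h1
    have hle : (R.map f) ≤ C.map (QuotientGroup.mk' (Cfsg.Inn S)) := by
      rintro _ ⟨γ, hγ, rfl⟩
      refine ⟨Ψ γ, ?_, rfl⟩
      rw [hC, SetLike.mem_coe, mem_centralizer_singleton_iff]
      have h1 : Ψ γ * MulAut.conj z * (Ψ γ)⁻¹ = MulAut.conj (Ψ γ z) := conj_conj _ _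
      rw [hfix γ (hRP hγ)] at h1
      exact mul_inv_eq_iff_eq_mul.1 h1
    have hcR : Nat.card ↥(R.map f) = Nat.card ↥R := by
      have h1 : R.map f = (f.comp R.subtype).range := by
        rw [MonoidHom.range_comp, range_subtype]
      rw [h1]
      exact (Nat.card_congr (MonoidHom.ofInjective hinj).toEquiv).symm
    intro hd
    -- orders
    have h1 : Nat.card ↥R ∣ Nat.card ↥(C.map (QuotientGroup.mk' (Cfsg.Inn S))) := by
      rw [← hcR]; exact card_dvd_of_le hle
    obtain ⟨a, ha⟩ := IsPGroup.iff_card.1 hQp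
    have h2 : p ^ (a + 1) ∣ Nat.card (Cfsg.Out S) := by
      rw [← card_mul_index (C.map (QuotientGroup.mk' (Cfsg.Inn S))), pow_succ]
      exact mul_dvd_mul (ha ▸ h1) hd
    have h3 := hcard _ h2
    rw [← card_mul_index R, ha, pow_succ] at h3
    exact hRi (Nat.dvd_of_mul_dvd_mul_left (pow_pos hp.out.pos a) h3)

end Cfsg.Agent.H122.On
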