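import Mathlib
import Cfsg.Agent.H122.On.FieldReal
import Cfsg.Agent.H967.FaBase

/-!
# Matrix groups over finite fields: real elements over the fixed field (helper122)

* `ev_of_stab` : `G ≤ GL_n(F)` stable under the field automorphisms, abelian Sylow `p`-subgroups, the `p`-part of `|Out G|`
  comes from the field automorphisms, and for the field automorphisms `σ` of `p`-power order there is a subgroup `G₀` of
  `GL_n(F_σ)` contained in `G` with a real element of order `p`: then `Ev p G`.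
-/

set_option autoImplicit false

namespace Cfsg.Agent.H122.On

open Subgroup Cfsg.Agent.H467.OddNorm Cfsg.Agent.H967.CopMat Cfsg.Agent.H722.RealP Matrix

variable {ι : Type*} [Fintype ι] [DecidableEq ι] {F : Type*} [Field F] [Fintype F] {G : Subgroup (GL ι F)}

theorem ev_of_stab (hG : Stab G) {p : ℕ} [hp : Fact p.Prime] (hp2 : p ≠ 2) (hZ : center ↥G = ⊥)
    (hab : ∀ P : Sylow p ↥G, IsMulCommutative (P : Subgroup ↥G)) {r f c : ℕ} [Fact r.Prime] [CharP F r] (hf : 1 ≤ f)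
    (hF : Fintype.card F = r ^ f) (hinn : ∀ σ : F ≃+* F, σ ≠ 1 → fieldAut hG σ ∉ Cfsg.Inn ↥G)
    (hc : Nat.card (Cfsg.Out ↥G) ∣ c * f) (hcp : ¬ p ∣ c)
    (hreal : ∀ (σ : F ≃+* F) (k : ℕ), orderOf σ = p ^ k → ∃ G₀ : Subgroup (GL ι ↥(Fx σ)),
      G₀.map (Matrix.GeneralLinearGroup.map (Fx σ).subtype) ≤ G ∧ HasReal p ↥G₀) : Ev p ↥G := by
  have hfin : Finite (F ≃+* F) := Finite.of_injective (fun f : F ≃+* F => (f : F → F)) DFunLike.coe_injective
  have hcard : Nat.card (F ≃+* F) = f := Cfsg.Agent.Lib.FieldAutCard.card_ringAut hf hF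
  obtain ⟨τ, hτ⟩ := exists_ringAut r f hF
  obtain ⟨k, m, hm, hkm⟩ := Nat.exists_eq_pow_mul_and_not_dvd (n := f) (by omega) p hp.out.one_lt.ne'
  set σ : F ≃+* F := τ ^ m with hσ
  have hm0 : m ≠ 0 := by rintro rfl; exact hm (dvd_zero p)
  have hσo : orderOf σ = p ^ k := by
    rw [hσ, orderOf_pow_of_dvd hm0 (by rw [hτ, hkm]; exact Dvd.intro_left _ rfl), hτ, hkm,
      Nat.mul_div_cancel _ (Nat.pos_of_ne_zero hm0)]
  obtain ⟨G₀, hG₀, x, t, hx, -, ht⟩ := hreal σ k hσo
  let f₀ : ↥G₀ →* ↥G :=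
    { toFun := fun g => ⟨Matrix.GeneralLinearGroup.map (Fx σ).subtype g.1, hG₀ ⟨g.1, g.2, rfl⟩⟩
      map_one' := Subtype.ext (map_one _)
      map_mul' := fun a b => Subtype.ext (map_mul _ _ _) }
  have hinj : Function.Injective f₀ := by
    intro a b hab
    exact Subtype.ext (Cfsg.Agent.H967.CopMat.map_injective (Fx σ).subtype (congrArg Subtype.val hab))
  have hfx : ∀ y, fieldAut hG σ (f₀ y) = f₀ y := fun y => Subtype.ext (map_fixed σ y.1)
  have hx1 : x ≠ 1 := by
    rintro rfl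
    rw [orderOf_one] at hx
    exact hp.out.one_lt.ne hx
  refine ev_of_field hp2 hZ hab (fieldAut hG) (fun γ hγ => hinn γ ?_) (fun j hj => ?_) (z := f₀ x) (g := f₀ t)
    (fun h => hx1 (hinj (h.trans (map_one f₀).symm))) ⟨1, ?_⟩ ?_ (P := zpowers σ) ?_ ?_
  · rintro rfl
    rw [orderOf_one] at hγ
    exact hp.out.one_lt.ne hγ
  · rw [hcard]
    exact (((hp.out.coprime_iff_not_dvd).2 hcp).pow_left j).dvd_of_dvd_mul_left (hj.trans hc)
  · rw [pow_one, ← map_pow, ← hx, pow_orderOf_eq_one, map_one]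
  · rw [← map_inv, ← map_inv, ← map_mul, ← map_mul, ht]
  · have h1 := card_mul_index (zpowers σ)
    rw [Nat.card_zpowers, hσo, hcard, hkm] at h1
    rw [Nat.eq_of_mul_eq_mul_left (pow_pos hp.out.pos k) h1]
    exact hm
  · rintro _ ⟨j, rfl⟩
    have h2 : fieldAut hG σ ∈ MulAction.stabilizer (MulAut ↥G) (f₀ x) := hfx x
    have h3 := zpow_mem h2 j
    show fieldAut hG (σ ^ j) (f₀ x) = f₀ x
    rw [map_zpow]
    exact h3

/-- the powers of a natural number congruent to itself -/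
theorem cast_pow_pow (p : ℕ) [Fact p.Prime] (a k : ℕ) : ((a ^ p ^ k : ℕ) : ZMod p) = (a : ZMod p) := by
  induction k with
  | zero => rw [pow_zero, pow_one]
  | succ k ih => rw [pow_succ, pow_mul, Nat.cast_pow, ZMod.pow_card, ih]

end Cfsg.Agent.H122.On
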